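import Cfsg.Agent.H6.Derange.Small

/-!
# Derangements in doubly transitive groups that are not sharply so
-/

set_option autoImplicit false

open MulAction

namespace Cfsg.Agent.H6.Derange

/-- No doubly transitive group of degree seven has two-point stabilisers of order two. -/
lemma not_card_84 {G Ω : Type*} [Group G] [MulAction G Ω] [Finite G] [Fintype Ω] [FaithfulSMul G Ω]
    [IsPretransitive G Ω] (hn : Fintype.card Ω = 7) (hG : Nat.card G = 84) : False := by
  classical
  have : Fact (Nat.Prime 7) := ⟨by norm_num⟩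
  obtain ⟨P⟩ : Nonempty (Sylow 7 G) := inferInstance
  have hP : Nat.card (P : Subgroup G) = 7 := by
    rw [Sylow.card_eq_multiplicity, hG, show 84 = 7 * 12 by norm_num,
      Nat.factorization_mul (by norm_num) (by norm_num), Finsupp.add_apply,
      (show Nat.Prime 7 by norm_num).factorization_self,
      Nat.factorization_eq_zero_of_not_dvd (by norm_num), add_zero, pow_one]
  have hidx : (P : Subgroup G).index = 12 := by
    have h := (P : Subgroup G).card_mul_index
    rw [hP, hG] at h
    omega
  have h1 : Nat.card (Sylow 7 G) = 1 := by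
    have hd := hidx ▸ P.card_dvd_index
    have hm := card_sylow_modEq_one 7 G
    have := Nat.le_of_dvd (by norm_num) hd
    unfold Nat.ModEq at hm
    interval_cases h : Nat.card (Sylow 7 G) <;> omega
  have : Subsingleton (Sylow 7 G) := (Nat.card_eq_one_iff_unique.1 h1).1
  have hN : (P : Subgroup G).Normal := P.normal_of_subsingleton
  have htr : IsPretransitive (P : Subgroup G) Ω := by
    have hdiv : ∀ x : Ω, Nat.card (orbit (P : Subgroup G) x) = 1 ∨
        Nat.card (orbit (P : Subgroup G) x) = 7 := fun x => by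
      refine (Nat.dvd_prime (by norm_num)).1 ?_
      have h := Nat.card_congr (orbitProdStabilizerEquivGroup (P : Subgroup G) x)
      rw [Nat.card_prod, hP] at h
      exact Dvd.intro _ h
    have hne : Nonempty Ω := Fintype.card_pos_iff.1 (by omega)
    obtain ⟨x⟩ := hne
    rcases hdiv x with h | h
    · exfalso
      have hfix : ∀ g ∈ (P : Subgroup G), g • x = x := fun g hg => by
        have : Subsingleton (orbit (P : Subgroup G) x) := (Nat.card_eq_one_iff_unique.1 h).1
        exact congrArg Subtype.val (Subsingleton.elim (⟨g • x, ⟨⟨g, hg⟩, rfl⟩⟩ : orbit (P : Subgroup G) x)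
          ⟨x, mem_orbit_self x⟩)
      have hbot : (P : Subgroup G) = ⊥ := (Subgroup.eq_bot_iff_forall _).2 fun g hg =>
        eq_of_smul_eq_smul (α := Ω) fun z => by
          obtain ⟨c, rfl⟩ := exists_smul_eq G x z
          have := hfix _ (hN.conj_mem g hg c⁻¹)
          rw [inv_inv, mul_smul, mul_smul, inv_smul_eq_iff] at this
          rw [this, one_smul]
      rw [hbot, Subgroup.card_bot] at hP
      omega
    · refine (isPretransitive_iff_base x).2 fun y => ?_
      have huniv : orbit (P : Subgroup G) x = Set.univ := by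
        refine Set.eq_univ_of_forall fun z => ?_
        by_contra hz
        have := Set.ncard_lt_card (s := orbit (P : Subgroup G) x) (fun e => hz (e ▸ Set.mem_univ z))
        rw [← Nat.card_coe_set_eq, h, Nat.card_eq_fintype_card, hn] at this
        omega
      show y ∈ orbit (P : Subgroup G) x
      rw [huniv]
      exact Set.mem_univ y
  obtain ⟨a⟩ : Nonempty Ω := Fintype.card_pos_iff.1 (by omega)
  let φ : stabilizer G a →* MulAut (P : Subgroup G) :=
    MulAut.conjNormal.comp (stabilizer G a).subtype
  have hφ : Function.Injective φ := by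
    refine (injective_iff_map_eq_one φ).2 fun h hh => Subtype.ext ?_
    refine eq_of_smul_eq_smul (α := Ω) fun z => ?_
    obtain ⟨⟨p, hp⟩, rfl⟩ := exists_smul_eq (P : Subgroup G) a z
    have e : (h : G) * p * (h : G)⁻¹ = p := by
      have := congrArg (fun f : MulAut (P : Subgroup G) => ((f ⟨p, hp⟩ : (P : Subgroup G)) : G)) hh
      simpa [φ, MulAut.conjNormal_apply] using this
    show (h : G) • p • a = (1 : G) • p • a
    rw [one_smul, ← mul_smul, mul_inv_eq_iff_eq_mul.1 e, mul_smul, mem_stabilizer_iff.1 h.2]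
  have hcyc : IsCyclic (P : Subgroup G) := isCyclic_of_prime_card hP
  have h12 : Nat.card (stabilizer G a) = 12 := by
    have h := Nat.card_congr (orbitProdStabilizerEquivGroup G a)
    rw [Nat.card_prod, orbit_eq_univ, Nat.card_univ, Nat.card_eq_fintype_card, hn, hG] at h
    omega
  have := Nat.card_le_card_of_injective φ hφ
  rw [h12, IsCyclic.card_mulAut, hP, Nat.totient_prime (by norm_num)] at this
  omega

variable {G Ω : Type*} [Group G] [MulAction G Ω] [Fintype G] [Fintype Ω] [FaithfulSMul G Ω]

/-- An element of order three moving at most three points forces a large orbit. -/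
lemma no_three_cycle (htwo : ∀ a b c d : Ω, a ≠ b → c ≠ d → ∃ g : G, g • a = c ∧ g • b = d)
    {a b : Ω} (hn : 7 ≤ Fintype.card Ω) {g : G} (hg : orderOf g = 3)
    (hfx : Fintype.card Ω ≤ fx Ω g + 3)
    (horb : ∀ x : Ω, Nat.card (orbit (pairStab G a b) x) ≤ 4) : False := by
  classical
  have hinj : Function.Injective (toPermHom G Ω) := toPerm_injective
  set σ := toPermHom G Ω g
  have hσ : orderOf σ = 3 := by rw [orderOf_injective _ hinj, hg]
  have hsupp : σ.support.card ≤ 3 := by
    have h1 : σ.support.card + fx Ω g = Fintype.card Ω := by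
      rw [fx, Nat.card_eq_fintype_card]
      have e : Fintype.card (fixedBy Ω g) = (Finset.univ.filter fun x : Ω => g • x = x).card := by
        rw [← Fintype.card_subtype]; rfl
      rw [e, ← Finset.card_univ, ← Finset.card_union_of_disjoint]
      · congr 1
        ext x
        simp [σ, em']
      · rw [Finset.disjoint_left]
        intro x hx
        simpa [σ] using hx
    omega
  have h3 : σ.IsThreeCycle := by
    refine card_support_eq_three_iff.1 ?_
    have h2 : σ.support.card ≠ 2 := fun h => by
      have := (Equiv.Perm.card_support_eq_two.1 h)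
      obtain ⟨x, y, hxy, e⟩ := this
      have h1 : σ ^ 2 = 1 := by rw [e, sq, Equiv.swap_mul_self]
      have := orderOf_le_of_pow_eq_one two_pos h1
      omega
    have h1 : 2 ≤ σ.support.card := Equiv.Perm.two_le_card_support_of_ne_one fun e => by
      rw [e, orderOf_one] at hσ
      omega
    omega
  have hprim : IsPreprimitive (toPermHom G Ω).range Ω := by
    refine isPreprimitive_of_is_two_pretransitive (is_two_pretransitive_iff.2 ?_)
    intro u v w z huv hwz
    obtain ⟨c, h1, h2⟩ := htwo u v w z huv hwz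
    exact ⟨⟨_, c, rfl⟩, h1, h2⟩
  have halt := Equiv.Perm.alternatingGroup_le_of_isPreprimitive_of_isThreeCycle_mem hprim h3 ⟨g, rfl⟩
  have key : ∀ u v : Ω, u ∉ ({a, b} : Finset Ω) → v ∉ ({a, b} : Finset Ω) →
      v ∈ orbit (pairStab G a b) u := by
    intro u v hu hv
    by_cases huv : u = v
    · exact huv ▸ mem_orbit_self u
    obtain ⟨w, -, hw⟩ := Finset.exists_mem_notMem_of_card_lt_card (s := ({a, b, u, v} : Finset Ω))
      (t := Finset.univ) (by
        have := Finset.card_le_four (a := a) (b := b) (c := u) (d := v)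
        rw [Finset.card_univ]
        omega)
    simp only [Finset.mem_insert, Finset.mem_singleton, not_or] at hu hv hw
    let τ : Equiv.Perm Ω := Equiv.swap u v * Equiv.swap v w
    have hτ : τ ∈ alternatingGroup Ω := by
      rw [Equiv.Perm.mem_alternatingGroup, map_mul, Equiv.Perm.sign_swap huv,
        Equiv.Perm.sign_swap (Ne.symm hw.2.2.2)]
      norm_num
    obtain ⟨h, hh⟩ := halt hτ
    have happ : ∀ x : Ω, h • x = τ x := fun x => by rw [← hh]; rfl
    refine ⟨⟨h, mem_pairStab.2 ⟨?_, ?_⟩⟩, ?_⟩
    · rw [happ, Equiv.Perm.mul_apply, Equiv.swap_apply_of_ne_of_ne (Ne.symm hv.1) (Ne.symm hw.1),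
        Equiv.swap_apply_of_ne_of_ne (Ne.symm hu.1) (Ne.symm hv.1)]
    · rw [happ, Equiv.Perm.mul_apply, Equiv.swap_apply_of_ne_of_ne (Ne.symm hv.2) (Ne.symm hw.2.1),
        Equiv.swap_apply_of_ne_of_ne (Ne.symm hu.2) (Ne.symm hv.2)]
    · show h • u = v
      rw [happ, Equiv.Perm.mul_apply, Equiv.swap_apply_of_ne_of_ne huv (Ne.symm hw.2.2.1),
        Equiv.swap_apply_left]
  have hc2 : ({a, b} : Finset Ω).card ≤ 2 := Finset.card_le_two
  obtain ⟨u, -, hu⟩ := Finset.exists_mem_notMem_of_card_lt_card (s := ({a, b} : Finset Ω))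
    (t := Finset.univ) (by rw [Finset.card_univ]; omega)
  have hle : ((Finset.univ : Finset Ω) \ {a, b}).card ≤ Nat.card (orbit (pairStab G a b) u) := by
    rw [Nat.card_eq_card_toFinset]
    refine Finset.card_le_card fun v hv => Set.mem_toFinset.2 ?_
    exact key u v hu (Finset.mem_sdiff.1 hv).2
  have h4 := horb u
  have h5 := Finset.le_card_sdiff ({a, b} : Finset Ω) Finset.univ
  rw [Finset.card_univ] at h5
  omega

/-- The sum of `n / π` over a two-point stabiliser of a doubly transitive group. -/
theorem sum_bound (htwo : ∀ a b c d : Ω, a ≠ b → c ≠ d → ∃ g : G, g • a = c ∧ g • b = d)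
    [IsPretransitive G Ω] (hn : 7 ≤ Fintype.card Ω) {a b : Ω} (hab : a ≠ b)
    [Fintype (pairStab G a b)] (hm : 2 ≤ Nat.card (pairStab G a b)) :
    2 * (Nat.card (pairStab G a b) : ℚ) ≤
      ∑ g : pairStab G a b, (Fintype.card Ω : ℚ) / fx Ω (g : G) := by
  classical
  set m := Nat.card (pairStab G a b) with hmdef
  set n := Fintype.card Ω with hndef
  set o := Nat.card (orbitRel.Quotient (pairStab G a b) Ω)
  set f := (line G a b).ncard with hfdef
  have hf2 : 2 ≤ f := by
    rw [← Set.ncard_pair hab]
    exact Set.ncard_le_ncard (Set.insert_subset (left_mem_line a b)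
      (Set.singleton_subset_iff.2 (right_mem_line a b)))
  have hfix1 : fx Ω ((1 : (pairStab G a b)) : G) = n := fx_eq_card_iff.2 rfl
  have hpos : ∀ g : (pairStab G a b), (0 : ℚ) < fx Ω (g : G) := fun g => by
    rw [Nat.cast_pos, fx]
    exact Nat.card_pos_iff.2 ⟨⟨a, g.2.1⟩, inferInstance⟩
  have hb : ∀ g : (pairStab G a b), g ≠ 1 → fx Ω (g : G) * (f - 1) ≤ n - 1 := fun g hg =>
    fx_mul_le htwo hab fun e => hg (Subtype.ext e)
  have hsum : ∑ g : (pairStab G a b), (n : ℚ) / fx Ω (g : G) =
      1 + ∑ g ∈ (Finset.univ : Finset (pairStab G a b)).erase 1, (n : ℚ) / fx Ω (g : G) := by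
    rw [← Finset.add_sum_erase _ _ (Finset.mem_univ (1 : (pairStab G a b))), hfix1,
      div_self (by positivity)]
  have hcard : ((Finset.univ : Finset (pairStab G a b)).erase 1).card = m - 1 := by
    rw [Finset.card_erase_of_mem (Finset.mem_univ _), Finset.card_univ, ← Nat.card_eq_fintype_card]
  have hmq : (2 : ℚ) ≤ m := by exact_mod_cast hm
  by_cases hf4 : 4 ≤ f
  · -- long lines
    rw [hsum]
    have h3 : ∀ g ∈ (Finset.univ : Finset (pairStab G a b)).erase 1, (3 : ℚ) ≤ (n : ℚ) / fx Ω (g : G) := by
      intro g hg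
      rw [le_div_iff₀ (hpos g)]
      have h := hb g (Finset.mem_erase.1 hg).1
      have : fx Ω (g : G) * 3 ≤ n := le_trans (Nat.mul_le_mul_left _ (by omega)) (h.trans (by omega))
      rw [mul_comm]
      exact_mod_cast this
    have := Finset.card_nsmul_le_sum _ _ _ h3
    rw [hcard, nsmul_eq_mul, Nat.cast_sub (by omega), Nat.cast_one] at this
    linarith
  have hofx : ∑ g : (pairStab G a b), fx Ω (g : G) = o * m := burnside (pairStab G a b) Ω
  by_cases hgood : (2 * m - 1) * o ≤ n * m
  · -- few orbits: tangent line bound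
    rw [hsum]
    have hgood' : (2 * (m : ℚ) - 1) * o ≤ n * m := by
      have h' : ((2 * m - 1 : ℕ) : ℚ) * o ≤ (n : ℚ) * m := by exact_mod_cast hgood
      rwa [Nat.cast_sub (by omega), Nat.cast_mul, Nat.cast_ofNat, Nat.cast_one] at h'
    have hnq : (0 : ℚ) < n := by exact_mod_cast (by omega : 0 < n)
    set c : ℚ := (2 * m - 1) / (m - 1) with hc
    have hm1 : (0 : ℚ) < (m : ℚ) - 1 := by linarith
    have hpt : ∀ g ∈ (Finset.univ : Finset (pairStab G a b)).erase 1,
        2 * c - c ^ 2 / n * fx Ω (g : G) ≤ (n : ℚ) / fx Ω (g : G) := by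
      intro g _
      rw [le_div_iff₀ (hpos g)]
      have : 0 ≤ ((n : ℚ) - c * fx Ω (g : G)) ^ 2 / n := div_nonneg (sq_nonneg _) hnq.le
      have e : ((n : ℚ) - c * fx Ω (g : G)) ^ 2 / n =
          n - 2 * c * fx Ω (g : G) + c ^ 2 / n * fx Ω (g : G) * fx Ω (g : G) := by
        field_simp; ring
      linarith
    have hle := Finset.sum_le_sum hpt
    have hsumfx : (∑ g ∈ (Finset.univ : Finset (pairStab G a b)).erase 1, (fx Ω (g : G) : ℚ)) =
        (o : ℚ) * m - n := by
      have h := Finset.add_sum_erase (Finset.univ : Finset (pairStab G a b)) (fun g => (fx Ω (g : G) : ℚ))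
        (Finset.mem_univ 1)
      rw [hfix1, ← Nat.cast_sum (Finset.univ : Finset (pairStab G a b)) (fun g => fx Ω (g : G)), hofx] at h
      push_cast at h
      linarith
    rw [Finset.sum_sub_distrib, Finset.sum_const, hcard, nsmul_eq_mul, ← Finset.mul_sum, hsumfx,
      Nat.cast_sub (by omega), Nat.cast_one] at hle
    have key : c ^ 2 / n * ((o : ℚ) * m - n) ≤ 2 * m - 1 := by
      have h1 : (2 * (m : ℚ) - 1) * ((o : ℚ) * m - n) ≤ n * ((m : ℚ) - 1) ^ 2 := by nlinarith
      rw [hc, div_pow, div_div, div_mul_eq_mul_div, div_le_iff₀ (by positivity)]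
      nlinarith
    have hc2 : ((m : ℚ) - 1) * (2 * c) = 2 * (2 * m - 1) := by rw [hc]; field_simp
    linarith
  -- many orbits
  exfalso
  rw [not_le] at hgood
  have := Fintype.ofFinite (orbitRel.Quotient (pairStab G a b) Ω)
  let sz : orbitRel.Quotient (pairStab G a b) Ω → ℕ := fun O => Nat.card O.orbit
  have hsz : ∀ x : Ω, sz (Quotient.mk'' x) = Nat.card (orbit (pairStab G a b) x) := fun x => by
    simp only [sz, orbitRel.Quotient.orbit_mk]
  have hszsum : ∑ O, sz O = n := by
    rw [hndef, ← Nat.card_eq_fintype_card, Nat.card_congr (selfEquivSigmaOrbits' (pairStab G a b) Ω),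
      Nat.card_sigma]
  have hszpos : ∀ O, 1 ≤ sz O := fun O => by
    induction O using Quotient.inductionOn' with
    | h x => rw [hsz]; exact Nat.card_pos_iff.2 ⟨⟨x, mem_orbit_self x⟩, inferInstance⟩
  have hones : (Finset.univ.filter fun O => sz O = 1).card = f := by
    rw [hfdef, Set.ncard_eq_toFinset_card']
    symm
    refine Finset.card_bij (fun x _ => (Quotient.mk'' x : orbitRel.Quotient (pairStab G a b) Ω)) ?_ ?_ ?_
    · intro x hx
      rw [Set.mem_toFinset] at hx
      refine Finset.mem_filter.2 ⟨Finset.mem_univ _, ?_⟩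
      rw [hsz, Nat.card_eq_one_iff_unique]
      refine ⟨⟨?_⟩, ⟨⟨x, mem_orbit_self x⟩⟩⟩
      rintro ⟨_, g, rfl⟩ ⟨_, g', rfl⟩
      exact Subtype.ext ((hx _ g.2).trans (hx _ g'.2).symm)
    · intro x hx y hy e
      rw [Set.mem_toFinset] at hy
      obtain ⟨g, hg⟩ := (orbitRel_apply.1 (Quotient.exact' e) : x ∈ orbit (pairStab G a b) y)
      exact hg.symm.trans (hy _ g.2)
    · intro O hO
      induction O using Quotient.inductionOn' with
      | h x =>
        refine ⟨x, ?_, rfl⟩
        rw [Set.mem_toFinset]
        intro g hg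
        have h1 := (Finset.mem_filter.1 hO).2
        rw [hsz, Nat.card_eq_one_iff_unique] at h1
        have := h1.1
        exact congrArg Subtype.val (Subsingleton.elim (⟨g • x, ⟨⟨g, hg⟩, rfl⟩⟩ : orbit (pairStab G a b) x)
          ⟨x, mem_orbit_self x⟩)
  set e := ∑ O, (sz O - 2)
  have hid : n + f = e + 2 * o := by
    have h1 : ∀ O, sz O + (if sz O = 1 then 1 else 0) = (sz O - 2) + 2 := fun O => by
      have := hszpos O
      split_ifs <;> omega
    have h2 := Finset.sum_congr rfl (fun O (_ : O ∈ Finset.univ) => h1 O)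
    rw [Finset.sum_add_distrib, Finset.sum_add_distrib, hszsum, Finset.sum_boole, Nat.cast_id,
      hones, Finset.sum_const, smul_eq_mul, Finset.card_univ, ← Nat.card_eq_fintype_card] at h2
    rw [h2, mul_comm 2]
  have hexc : (2 * m - 1) * (f - e) > n := by
    obtain ⟨M, hM⟩ : ∃ M, 2 * m - 1 = M := ⟨_, rfl⟩
    rw [hM] at hgood ⊢
    have hM' : M + 1 = 2 * m := by omega
    have hlt : n < 2 * o := by
      by_contra h
      have h1 := Nat.mul_le_mul_left M (not_lt.1 h)
      nlinarith
    have hfe : f - e = 2 * o - n := by omega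
    rw [hfe]
    have h2 : M * (2 * o - n) + M * n = M * (2 * o) := by
      rw [← Nat.mul_add, Nat.sub_add_cancel hlt.le]
    nlinarith
  have hef : e < f := by
    by_contra h
    rw [Nat.sub_eq_zero_of_le (not_lt.1 h), mul_zero] at hexc
    omega
  have hszle : ∀ O, sz O ≤ e + 2 := fun O => by
    have := Finset.single_le_sum (f := fun O => sz O - 2) (fun _ _ => Nat.zero_le _) (Finset.mem_univ O)
    change sz O - 2 ≤ e at this
    omega
  have horb : ∀ x : Ω, Nat.card (orbit (pairStab G a b) x) ≤ e + 2 := fun x => hsz x ▸ hszle _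
  rcases (show e = 0 ∨ e = 1 ∨ (e = 2 ∧ f = 3) by omega) with he | he | ⟨he, hf⟩
  · -- all orbits of length at most two
    have horb' : ∀ x y z : Ω, x ≠ y → Nat.card (orbit (pairStab G x y) z) ≤ 2 := by
      intro x y z hxy
      obtain ⟨c, h1, h2⟩ := htwo a b x y hab hxy
      refine le_trans ?_ (he ▸ horb (c⁻¹ • z))
      refine Nat.card_le_card_of_injective (fun w => ⟨c⁻¹ • w.1, ?_⟩)
        (fun w w' h => Subtype.ext (MulAction.injective c⁻¹ (congrArg Subtype.val h)))
      obtain ⟨g, hg⟩ := w.2
      refine ⟨⟨c⁻¹ * g.1 * c, mem_pairStab.2 ⟨?_, ?_⟩⟩, ?_⟩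
      · rw [mul_smul, mul_smul, h1, (mem_pairStab.1 g.2).1, ← h1, inv_smul_smul]
      · rw [mul_smul, mul_smul, h2, (mem_pairStab.1 g.2).2, ← h2, inv_smul_smul]
      · show (c⁻¹ * g.1 * c) • c⁻¹ • z = c⁻¹ • w.1
        rw [mul_smul, mul_smul, smul_inv_smul, ← hg]
        rfl
    have hm2 : m = 2 := le_antisymm (card_pairStab_le_two htwo horb' hab) hm
    rw [hm2, he] at hexc
    have h7 : n = 7 := by omega
    refine not_card_84 (G := G) (Ω := Ω) h7 ?_
    rw [card_group htwo hab, ← hmdef, hm2, ← hndef, h7]
  · -- one orbit of length three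
    obtain ⟨O, hO⟩ : ∃ O, sz O = 3 := by
      by_contra h
      push Not at h
      have : e = 0 := Finset.sum_eq_zero fun O _ => by
        have := hszle O
        have := h O
        omega
      omega
    have hothers : ∀ O', O' ≠ O → sz O' ≤ 2 := fun O' hne => by
      have := Finset.sum_le_sum_of_subset (f := fun O => sz O - 2) (Finset.subset_univ {O', O})
      rw [Finset.sum_pair hne] at this
      omega
    induction O using Quotient.inductionOn' with
    | h x =>
      rw [hsz] at hO
      have h3 : 3 ∣ m := by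
        rw [hmdef, ← Nat.card_congr (orbitProdStabilizerEquivGroup (pairStab G a b) x), Nat.card_prod, hO]
        exact Dvd.intro _ rfl
      have := Fact.mk Nat.prime_three
      obtain ⟨g, hg⟩ := exists_prime_orderOf_dvd_card' (G := (pairStab G a b)) 3 h3
      rw [← Subgroup.orderOf_coe] at hg
      have hfx : n ≤ fx Ω (g : G) + 3 := by
        have hmove : ∀ y : Ω, (g : G) • y ≠ y → y ∈ orbit (pairStab G a b) x := by
          intro y hy
          by_contra hyx
          have hne : (Quotient.mk'' y : orbitRel.Quotient (pairStab G a b) Ω) ≠ Quotient.mk'' x := fun e =>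
            hyx (orbitRel_apply.1 (Quotient.exact' e))
          have h2 := hothers _ hne
          rw [hsz] at h2
          let T : Finset Ω := {y, (g : G) • y, (g : G) • (g : G) • y}
          have hT : T.card = 3 := by
            refine Finset.card_eq_three.2 ⟨_, _, _, Ne.symm hy, fun e => hy ?_, fun e => hy ?_, rfl⟩
            · have h31 : (g : G) ^ 3 = 1 := by rw [← hg, pow_orderOf_eq_one]
              conv_rhs => rw [← one_smul G y, ← h31, pow_succ', pow_two, mul_smul, mul_smul, ← e]
            · exact (MulAction.injective (g : G) e).symm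
          have hle : T.card ≤ Nat.card (orbit (pairStab G a b) y) := by
            rw [Nat.card_eq_card_toFinset]
            refine Finset.card_le_card fun z hz => Set.mem_toFinset.2 ?_
            simp only [T, Finset.mem_insert, Finset.mem_singleton] at hz
            rcases hz with rfl | rfl | rfl
            · exact mem_orbit_self _
            · exact ⟨g, rfl⟩
            · exact ⟨g * g, mul_smul g g y⟩
          omega
        have h1 : (Finset.univ.filter fun y : Ω => ¬ (g : G) • y = y).card ≤ 3 := by
          rw [← hO, Nat.card_eq_card_toFinset]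
          exact Finset.card_le_card fun y hy => Set.mem_toFinset.2 (hmove y (Finset.mem_filter.1 hy).2)
        have h2 := Finset.card_filter_add_card_filter_not (s := (Finset.univ : Finset Ω))
          (p := fun y => (g : G) • y = y)
        have h3' : fx Ω (g : G) = (Finset.univ.filter fun y : Ω => (g : G) • y = y).card := by
          rw [fx, Nat.card_eq_fintype_card, ← Fintype.card_subtype]; rfl
        rw [Finset.card_univ] at h2
        omega
      rcases (show f = 2 ∨ f = 3 by omega) with hf | hf
      · exact no_three_cycle htwo hn hg hfx fun y => le_trans (horb y) (by omega)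
      · have h := hb g fun e => by rw [e, OneMemClass.coe_one, orderOf_one] at hg; omega
        rw [hf] at h
        omega
  · -- lines of length three, excess two
    have h2 : ∀ g ∈ (Finset.univ : Finset (pairStab G a b)).erase 1, fx Ω (g : G) * 2 ≤ n - 1 := fun g hg => by
      have := hb g (Finset.mem_erase.1 hg).1
      rwa [hf] at this
    have h3 := Finset.sum_le_card_nsmul _ _ _ h2
    rw [hcard, smul_eq_mul, ← Finset.sum_mul] at h3
    have h4 := Finset.add_sum_erase (Finset.univ : Finset (pairStab G a b)) (fun g => fx Ω (g : G)) (Finset.mem_univ 1)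
    rw [hfix1, hofx] at h4
    have h5 : 2 * o = n + 1 := by omega
    have h6 : 2 * m - 1 > n := by rw [hf, he] at hexc; omega
    obtain ⟨M, hM⟩ : ∃ M, m = M + 1 := ⟨m - 1, by omega⟩
    obtain ⟨N, hN⟩ : ∃ N, n = N + 1 := ⟨n - 1, by omega⟩
    rw [hM, Nat.add_sub_cancel, hN, Nat.add_sub_cancel] at h3
    rw [hM, hN] at h4
    have h7 : (n + 1) * (M + 1) = 2 * (o * (M + 1)) := by rw [← h5]; ring
    rw [hN] at h7
    generalize (∑ g ∈ (Finset.univ : Finset (pairStab G a b)).erase 1, fx Ω (g : G)) = S at h3 h4
    have h8 : 2 * (N + 1) + 2 * S = (N + 1 + 1) * (M + 1) := by rw [h7]; linarith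
    have h9 : (N + 1 + 1) * (M + 1) = M * N + 2 * M + N + 2 := by ring
    have h10 : N < 2 * M := by omega
    linarith

end Cfsg.Agent.H6.Derange
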