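import Mathlib

/-!
# Counting fixed points in a transitive group

For a transitive group the sum of `(π g - 1) * (π g - n)` is `(rank - 1) * |G|`, where `π g` is
the number of fixed points of `g`.
-/

set_option autoImplicit false

open MulAction

namespace Cfsg.Agent.H6.Derange

variable {G Ω : Type*} [Group G] [MulAction G Ω]

variable (Ω) in
/-- Number of fixed points. -/
noncomputable def fx (g : G) : ℕ := Nat.card (fixedBy Ω g)

variable (G) in
/-- The stabiliser of two points. -/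
def pairStab (a b : Ω) : Subgroup G := stabilizer G a ⊓ stabilizer G b

lemma mem_pairStab {a b : Ω} {g : G} : g ∈ pairStab G a b ↔ g • a = a ∧ g • b = b := Iff.rfl

lemma pairStab_comm (a b : Ω) : pairStab G a b = pairStab G b a := inf_comm _ _

lemma fx_conj (c g : G) : fx Ω (c * g * c⁻¹) = fx Ω g := by
  refine Nat.card_congr
    { toFun := fun x => ⟨c⁻¹ • x.1, ?_⟩
      invFun := fun x => ⟨c • x.1, ?_⟩
      left_inv := fun x => by simp
      right_inv := fun x => by simp }
  · have h : (c * g * c⁻¹) • x.1 = x.1 := x.2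
    show g • c⁻¹ • x.1 = c⁻¹ • x.1
    rw [smul_smul, eq_inv_smul_iff, smul_smul, ← mul_assoc, h]
  · have h : g • x.1 = x.1 := x.2
    show (c * g * c⁻¹) • c • x.1 = c • x.1
    rw [smul_smul, inv_mul_cancel_right, mul_smul, h]

variable [Fintype G] [Fintype Ω]

lemma fx_le (g : G) : fx Ω g ≤ Fintype.card Ω := by
  rw [fx, ← Nat.card_eq_fintype_card]
  exact Nat.card_le_card_of_injective _ Subtype.val_injective

lemma fx_eq_card_iff [FaithfulSMul G Ω] {g : G} : fx Ω g = Fintype.card Ω ↔ g = 1 := by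
  classical
  constructor
  · intro h
    refine eq_of_smul_eq_smul (α := Ω) fun x => ?_
    rw [one_smul]
    by_contra hx
    have hlt : (Finset.univ.filter fun y : Ω => g • y = y).card < Fintype.card Ω :=
      Finset.card_lt_card (Finset.filter_ssubset.2 ⟨x, Finset.mem_univ x, hx⟩)
    rw [fx, Nat.card_eq_fintype_card] at h
    rw [← Fintype.card_subtype] at hlt
    exact hlt.ne h
  · rintro rfl
    rw [fx, ← Nat.card_eq_fintype_card]
    exact Nat.card_congr (Equiv.subtypeUnivEquiv fun x => one_smul G x)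

/-- Burnside's lemma with `Nat.card`. -/
lemma burnside (K X : Type*) [Group K] [MulAction K X] [Fintype K] [Finite X] :
    ∑ g : K, Nat.card (fixedBy X g) = Nat.card (orbitRel.Quotient K X) * Nat.card K := by
  classical
  have := Fintype.ofFinite X
  simp only [Nat.card_eq_fintype_card]
  exact sum_card_fixedBy_eq_card_orbits_mul_card_group K X

lemma sum_fx [Nonempty Ω] [IsPretransitive G Ω] : ∑ g : G, fx Ω g = Nat.card G := by
  have h := burnside G Ω
  have h1 : Nat.card (orbitRel.Quotient G Ω) = 1 := by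
    rw [Nat.card_eq_one_iff_unique]
    exact ⟨pretransitive_iff_subsingleton_quotient G Ω |>.1 inferInstance,
      ⟨Quotient.mk'' (Classical.arbitrary Ω)⟩⟩
  rw [h1, one_mul] at h
  exact h

lemma sum_fx_sq : ∑ g : G, fx Ω g * fx Ω g =
    Nat.card (orbitRel.Quotient G (Ω × Ω)) * Nat.card G := by
  rw [← burnside G (Ω × Ω)]
  refine Finset.sum_congr rfl fun g _ => ?_
  rw [fx, ← Nat.card_prod]
  refine Nat.card_congr
    { toFun := fun x => ⟨(x.1.1, x.2.1), Prod.ext x.1.2 x.2.2⟩
      invFun := fun x => (⟨x.1.1, congrArg Prod.fst x.2⟩, ⟨x.1.2, congrArg Prod.snd x.2⟩)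
      left_inv := fun x => rfl
      right_inv := fun x => rfl }

/-- A transitive group of rank at most two is doubly transitive. -/
lemma rank_cases (hn : 2 ≤ Fintype.card Ω) :
    3 ≤ Nat.card (orbitRel.Quotient G (Ω × Ω)) ∨
      (Nat.card (orbitRel.Quotient G (Ω × Ω)) = 2 ∧
        ∀ a b c d : Ω, a ≠ b → c ≠ d → ∃ g : G, g • a = c ∧ g • b = d) := by
  classical
  obtain ⟨a, b, hab⟩ := Fintype.exists_pair_of_one_lt_card (show 1 < Fintype.card Ω by omega)
  let cl : Ω × Ω → orbitRel.Quotient G (Ω × Ω) := fun p => Quotient.mk'' p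
  have hdiag : ∀ {p : Ω × Ω} (x : Ω), p.1 ≠ p.2 → cl p ≠ cl (x, x) := by
    intro p x hp e
    obtain ⟨g, hg⟩ := (orbitRel_apply.1 (Quotient.exact' e) : p ∈ orbit G (x, x))
    exact hp (by rw [← hg]; rfl)
  have h2 : 2 ≤ Nat.card (orbitRel.Quotient G (Ω × Ω)) :=
    Finite.one_lt_card_iff_nontrivial.2 ⟨cl (a, b), cl (a, a), hdiag a hab⟩
  by_cases h : ∀ a b c d : Ω, a ≠ b → c ≠ d → cl (c, d) = cl (a, b)
  · by_cases h3 : 3 ≤ Nat.card (orbitRel.Quotient G (Ω × Ω))
    · exact Or.inl h3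
    · refine Or.inr ⟨by omega, fun a b c d hab hcd => ?_⟩
      obtain ⟨g, hg⟩ :=
        (orbitRel_apply.1 (Quotient.exact' (h a b c d hab hcd)) : (c, d) ∈ orbit G (a, b))
      exact ⟨g, congrArg Prod.fst hg, congrArg Prod.snd hg⟩
  · left
    push Not at h
    obtain ⟨a, b, c, d, hab, hcd, hne⟩ := h
    have := Fintype.ofFinite (orbitRel.Quotient G (Ω × Ω))
    rw [Nat.card_eq_fintype_card]
    have h3 : ({cl (c, d), cl (a, b), cl (a, a)} : Finset _).card = 3 :=
      Finset.card_eq_three.2 ⟨_, _, _, hne, hdiag a hcd, hdiag a hab, rfl⟩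
    exact h3 ▸ Finset.card_le_univ _

/-- The basic identity. -/
lemma derangement_identity [Nonempty Ω] [IsPretransitive G Ω] :
    ((Fintype.card Ω * Nat.card {g : G // ∀ ω : Ω, g • ω ≠ ω} : ℕ) : ℚ) =
      ((Nat.card (orbitRel.Quotient G (Ω × Ω)) : ℚ) - 1) * Nat.card G +
      ∑ g : G, if fx Ω g = 0 then (0 : ℚ)
        else ((fx Ω g : ℚ) - 1) * ((Fintype.card Ω : ℚ) - fx Ω g) := by
  classical
  set n : ℚ := (Fintype.card Ω : ℚ)
  have h1 : (∑ g : G, (fx Ω g : ℚ)) = Nat.card G := by exact_mod_cast sum_fx (G := G) (Ω := Ω)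
  have h2 : (∑ g : G, (fx Ω g : ℚ) * fx Ω g) =
      (Nat.card (orbitRel.Quotient G (Ω × Ω)) : ℚ) * Nat.card G := by
    exact_mod_cast sum_fx_sq (G := G) (Ω := Ω)
  have h3 : (∑ g : G, ((fx Ω g : ℚ) - 1) * ((fx Ω g : ℚ) - n)) =
      ((Nat.card (orbitRel.Quotient G (Ω × Ω)) : ℚ) - 1) * Nat.card G := by
    have e : ∀ g : G, ((fx Ω g : ℚ) - 1) * ((fx Ω g : ℚ) - n) =
        (fx Ω g : ℚ) * fx Ω g - (n + 1) * fx Ω g + n := fun g => by ring
    simp only [e]
    rw [Finset.sum_add_distrib, Finset.sum_sub_distrib, ← Finset.mul_sum, h1, h2, Finset.sum_const,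
      Finset.card_univ, nsmul_eq_mul, ← Nat.card_eq_fintype_card]
    ring
  have h4 : ((Fintype.card Ω * Nat.card {g : G // ∀ ω : Ω, g • ω ≠ ω} : ℕ) : ℚ) =
      ∑ g : G, if fx Ω g = 0 then n else 0 := by
    rw [← Finset.sum_filter, Finset.sum_const, nsmul_eq_mul, Nat.cast_mul, Nat.card_eq_fintype_card,
      Fintype.card_subtype, mul_comm]
    congr 3
    ext g
    simp only [Finset.mem_filter, Finset.mem_univ, true_and, fx, Nat.card_eq_zero]
    constructor
    · exact fun h => Or.inl ⟨fun x => h x.1 x.2⟩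
    · rintro (h | h) x hx
      · exact h.false ⟨x, hx⟩
      · exact (not_finite_iff_infinite.2 h) inferInstance
  rw [h4, ← h3, ← Finset.sum_add_distrib]
  refine Finset.sum_congr rfl fun g _ => ?_
  split_ifs with h
  · rw [h, Nat.cast_zero]; ring
  · ring

/-- Rank at least three gives two times `|G| / n` derangements. -/
lemma bound_of_rank_three [Nonempty Ω] [IsPretransitive G Ω]
    (hr : 3 ≤ Nat.card (orbitRel.Quotient G (Ω × Ω))) :
    2 * Nat.card G ≤ Fintype.card Ω * Nat.card {g : G // ∀ ω : Ω, g • ω ≠ ω} := by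
  have h := derangement_identity (G := G) (Ω := Ω)
  have hnn : 0 ≤ ∑ g : G, if fx Ω g = 0 then (0 : ℚ)
      else ((fx Ω g : ℚ) - 1) * ((Fintype.card Ω : ℚ) - fx Ω g) := by
    refine Finset.sum_nonneg fun g _ => ?_
    split_ifs with h
    · rfl
    · refine mul_nonneg ?_ (sub_nonneg.2 (Nat.cast_le.2 (fx_le g)))
      rw [sub_nonneg]
      exact_mod_cast Nat.one_le_iff_ne_zero.2 h
  have hr' : (3 : ℚ) ≤ Nat.card (orbitRel.Quotient G (Ω × Ω)) := by exact_mod_cast hr
  have : ((2 * Nat.card G : ℕ) : ℚ) ≤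
      ((Fintype.card Ω * Nat.card {g : G // ∀ ω : Ω, g • ω ≠ ω} : ℕ) : ℚ) := by
    rw [h, Nat.cast_mul, Nat.cast_ofNat]
    have : (0 : ℚ) ≤ Nat.card G := Nat.cast_nonneg _
    nlinarith
  exact_mod_cast this

section two

variable (htwo : ∀ a b c d : Ω, a ≠ b → c ≠ d → ∃ g : G, g • a = c ∧ g • b = d)

/-- The weight attached to an element. -/
noncomputable def wt (Ω : Type*) [Fintype Ω] {G : Type*} [Group G] [MulAction G Ω] (g : G) : ℚ :=
  ((Fintype.card Ω : ℚ) - fx Ω g) / fx Ω g

include htwo in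
/-- In a doubly transitive group the error term lives in a two-point stabiliser. -/
lemma error_term {a b : Ω} (hab : a ≠ b) [DecidablePred (· ∈ pairStab G a b)] :
    (∑ g : G, if fx Ω g = 0 then (0 : ℚ)
        else ((fx Ω g : ℚ) - 1) * ((Fintype.card Ω : ℚ) - fx Ω g)) =
      ((Fintype.card Ω : ℚ) * (Fintype.card Ω - 1)) * ∑ g : pairStab G a b, wt Ω (g : G) := by
  classical
  have hpt : ∀ g : G, (if fx Ω g = 0 then (0 : ℚ)
        else ((fx Ω g : ℚ) - 1) * ((Fintype.card Ω : ℚ) - fx Ω g)) =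
      ∑ p ∈ (Finset.univ : Finset Ω).offDiag,
        if g ∈ pairStab G p.1 p.2 then wt Ω g else 0 := by
    intro g
    have hfilter : ((Finset.univ : Finset Ω).offDiag.filter fun p => g ∈ pairStab G p.1 p.2) =
        (Finset.univ.filter fun x : Ω => g • x = x).offDiag := by
      ext p
      simp [mem_pairStab, and_assoc, and_comm, and_left_comm]
    have hcard : (Finset.univ.filter fun x : Ω => g • x = x).card = fx Ω g := by
      rw [fx, Nat.card_eq_fintype_card, ← Fintype.card_subtype]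
      rfl
    rw [← Finset.sum_filter, Finset.sum_const, hfilter, Finset.offDiag_card, hcard, nsmul_eq_mul,
      Nat.cast_sub (Nat.le_mul_self _), Nat.cast_mul]
    by_cases h : fx Ω g = 0
    · rw [if_pos h, h]; simp
    · rw [if_neg h, wt]
      field_simp
  rw [Finset.sum_congr rfl fun g _ => hpt g, Finset.sum_comm]
  have hfib : ∀ p ∈ (Finset.univ : Finset Ω).offDiag,
      (∑ g : G, if g ∈ pairStab G p.1 p.2 then wt Ω g else 0) =
        ∑ g : pairStab G a b, wt Ω (g : G) := by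
    intro p hp
    obtain ⟨-, -, hne⟩ := Finset.mem_offDiag.1 hp
    obtain ⟨c, hc1, hc2⟩ := htwo a b p.1 p.2 hab hne
    rw [← Finset.sum_filter]
    symm
    refine Finset.sum_bij (fun g _ => c * (g : G) * c⁻¹) ?_ ?_ ?_ ?_
    · intro g _
      obtain ⟨h1, h2⟩ := mem_pairStab.1 g.2
      refine Finset.mem_filter.2 ⟨Finset.mem_univ _, mem_pairStab.2 ⟨?_, ?_⟩⟩
      · rw [← hc1, smul_smul, inv_mul_cancel_right, mul_smul, h1]
      · rw [← hc2, smul_smul, inv_mul_cancel_right, mul_smul, h2]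
    · intro g _ g' _ h
      exact Subtype.ext (mul_left_cancel (mul_right_cancel h))
    · intro g hg
      obtain ⟨h1, h2⟩ := mem_pairStab.1 (Finset.mem_filter.1 hg).2
      refine ⟨⟨c⁻¹ * g * c, mem_pairStab.2 ⟨?_, ?_⟩⟩, Finset.mem_univ _, ?_⟩
      · rw [mul_smul, mul_smul, hc1, h1, ← hc1, inv_smul_smul]
      · rw [mul_smul, mul_smul, hc2, h2, ← hc2, inv_smul_smul]
      · simp [mul_assoc]
    · intro g _
      simp only [wt, fx_conj]
  rw [Finset.sum_congr rfl hfib, Finset.sum_const, nsmul_eq_mul, Finset.offDiag_card,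
    Finset.card_univ, Nat.cast_sub (Nat.le_mul_self _), Nat.cast_mul]
  ring

include htwo in
/-- `|G| = n (n - 1) m`. -/
lemma card_group {a b : Ω} (hab : a ≠ b) :
    Nat.card G = Fintype.card Ω * (Fintype.card Ω - 1) * Nat.card (pairStab G a b) := by
  classical
  have hst : stabilizer G (a, b) = pairStab G a b := by
    ext g
    simp [mem_pairStab, Prod.ext_iff]
  have horb : orbit G (a, b) = {p : Ω × Ω | p.1 ≠ p.2} := by
    ext p
    constructor
    · rintro ⟨g, rfl⟩ e
      exact hab (smul_left_cancel g e)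
    · intro hp
      obtain ⟨g, h1, h2⟩ := htwo a b p.1 p.2 hab hp
      exact ⟨g, Prod.ext h1 h2⟩
  have h := Nat.card_congr (orbitProdStabilizerEquivGroup G (a, b))
  rw [Nat.card_prod, hst, horb] at h
  rw [← h]
  congr 1
  rw [Nat.card_eq_fintype_card, Fintype.card_subtype,
    show (Finset.univ.filter fun p : Ω × Ω => p ∈ {p : Ω × Ω | p.1 ≠ p.2}) =
      (Finset.univ : Finset Ω).offDiag by ext p; simp,
    Finset.offDiag_card, Finset.card_univ, Nat.mul_sub_one]

end two

end Cfsg.Agent.H6.Derange
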