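import Cfsg.Agent.H6.Derange.Count

/-!
# Fixed-point sets of two-point stabilisers in a doubly transitive group
-/

set_option autoImplicit false

open MulAction

namespace Cfsg.Agent.H6.Derange

variable {G Ω : Type*} [Group G] [MulAction G Ω]

variable (G) in
/-- The fixed-point set of a two-point stabiliser. -/
def line (a b : Ω) : Set Ω := {c | ∀ g ∈ pairStab G a b, g • c = c}

lemma mem_line {a b c : Ω} : c ∈ line G a b ↔ ∀ g ∈ pairStab G a b, g • c = c := Iff.rfl

lemma left_mem_line (a b : Ω) : a ∈ line G a b := fun _ hg => hg.1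
lemma right_mem_line (a b : Ω) : b ∈ line G a b := fun _ hg => hg.2

lemma line_comm (a b : Ω) : line G a b = line G b a := by simp [line, pairStab_comm]

variable [Fintype G] [Fintype Ω]
  (htwo : ∀ a b c d : Ω, a ≠ b → c ≠ d → ∃ g : G, g • a = c ∧ g • b = d)

omit [Fintype Ω] in
include htwo in
lemma card_pairStab_eq {a b c d : Ω} (hab : a ≠ b) (hcd : c ≠ d) :
    Nat.card (pairStab G a b) = Nat.card (pairStab G c d) := by
  obtain ⟨g, h1, h2⟩ := htwo a b c d hab hcd
  refine Nat.card_congr
    { toFun := fun x => ⟨g * x.1 * g⁻¹, mem_pairStab.2 ⟨?_, ?_⟩⟩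
      invFun := fun x => ⟨g⁻¹ * x.1 * g, mem_pairStab.2 ⟨?_, ?_⟩⟩
      left_inv := fun x => by simp [mul_assoc]
      right_inv := fun x => by simp [mul_assoc] }
  · rw [← h1, smul_smul, inv_mul_cancel_right, mul_smul, (mem_pairStab.1 x.2).1]
  · rw [← h2, smul_smul, inv_mul_cancel_right, mul_smul, (mem_pairStab.1 x.2).2]
  · rw [mul_smul, mul_smul, h1, (mem_pairStab.1 x.2).1, ← h1, inv_smul_smul]
  · rw [mul_smul, mul_smul, h2, (mem_pairStab.1 x.2).2, ← h2, inv_smul_smul]

omit [Fintype Ω] in
include htwo in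
/-- Two points of a line determine it. -/
lemma pairStab_eq_of_mem {a b u v : Ω} (hab : a ≠ b) (hu : u ∈ line G a b) (hv : v ∈ line G a b)
    (huv : u ≠ v) : pairStab G u v = pairStab G a b := by
  refine (Subgroup.eq_of_le_of_card_ge (fun g hg => mem_pairStab.2 ⟨hu g hg, hv g hg⟩) ?_).symm
  exact (card_pairStab_eq htwo huv hab).le

omit [Fintype Ω] in
include htwo in
lemma line_eq_of_mem {a b u v : Ω} (hab : a ≠ b) (hu : u ∈ line G a b) (hv : v ∈ line G a b)
    (huv : u ≠ v) : line G u v = line G a b := by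
  simp only [line, pairStab_eq_of_mem htwo hab hu hv huv]

omit [Fintype G] [Fintype Ω] in
include htwo in
lemma ncard_line_eq {a b c d : Ω} (hab : a ≠ b) (hcd : c ≠ d) :
    (line G a b).ncard = (line G c d).ncard := by
  obtain ⟨g, h1, h2⟩ := htwo a b c d hab hcd
  have himg : (g • ·) '' line G a b = line G c d := by
    ext x
    constructor
    · rintro ⟨y, hy, rfl⟩ h hh
      show h • g • y = g • y
      have hm : g⁻¹ * h * g ∈ pairStab G a b := mem_pairStab.2
        ⟨by rw [mul_smul, mul_smul, h1, (mem_pairStab.1 hh).1, ← h1, inv_smul_smul],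
          by rw [mul_smul, mul_smul, h2, (mem_pairStab.1 hh).2, ← h2, inv_smul_smul]⟩
      have := hy _ hm
      rwa [mul_smul, mul_smul, inv_smul_eq_iff] at this
    · intro hx
      refine ⟨g⁻¹ • x, fun h hh => ?_, smul_inv_smul g x⟩
      have hm : g * h * g⁻¹ ∈ pairStab G c d := mem_pairStab.2
        ⟨by rw [← h1, smul_smul, inv_mul_cancel_right, mul_smul, (mem_pairStab.1 hh).1],
          by rw [← h2, smul_smul, inv_mul_cancel_right, mul_smul, (mem_pairStab.1 hh).2]⟩
      have := hx _ hm
      rw [mul_smul, mul_smul, smul_eq_iff_eq_inv_smul] at this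
      exact this
  rw [← himg, Set.ncard_image_of_injective _ (MulAction.injective g)]

include htwo in
/-- The fixed points of a non-trivial element form a proper subspace. -/
lemma fx_mul_le [FaithfulSMul G Ω] {a b : Ω} (hab : a ≠ b) {g : G} (hg : g ≠ 1) :
    fx Ω g * ((line G a b).ncard - 1) ≤ Fintype.card Ω - 1 := by
  classical
  obtain ⟨y, hy⟩ : ∃ y : Ω, g • y ≠ y := by
    by_contra h
    push Not at h
    exact hg (eq_of_smul_eq_smul fun x => (h x).trans (one_smul G x).symm)
  set s : Finset Ω := Finset.univ.filter fun x => g • x = x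
  have hs : s.card = fx Ω g := by
    rw [fx, Nat.card_eq_fintype_card, ← Fintype.card_subtype]; rfl
  let L : Ω → Finset Ω := fun c => (line G y c).toFinset.erase y
  have hne : ∀ c ∈ s, y ≠ c := fun c hc e => hy (e ▸ (Finset.mem_filter.1 hc).2)
  have hL : ∀ c ∈ s, (L c).card = (line G a b).ncard - 1 := by
    intro c hc
    rw [Finset.card_erase_of_mem (Set.mem_toFinset.2 (left_mem_line y c)),
      ← Set.ncard_eq_toFinset_card', ncard_line_eq htwo (hne c hc) hab]
  have hdisj : (s : Set Ω).PairwiseDisjoint L := by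
    intro c hc d hd hcd
    rw [Finset.mem_coe] at hc hd
    simp only [Function.onFun]
    rw [Finset.disjoint_left]
    intro u huc hud
    obtain ⟨huy, huc⟩ := Finset.mem_erase.1 huc
    obtain ⟨-, hud⟩ := Finset.mem_erase.1 hud
    rw [Set.mem_toFinset] at huc hud
    have e1 := line_eq_of_mem htwo (hne c hc) (left_mem_line y c) huc huy.symm
    have e2 := line_eq_of_mem htwo (hne d hd) (left_mem_line y d) hud huy.symm
    have hd' : d ∈ line G y c := by rw [← e1, e2]; exact right_mem_line y d
    have e3 := pairStab_eq_of_mem htwo (hne c hc) (right_mem_line y c) hd' hcd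
    have hgm : g ∈ pairStab G y c := e3 ▸
      mem_pairStab.2 ⟨(Finset.mem_filter.1 hc).2, (Finset.mem_filter.1 hd).2⟩
    exact hy hgm.1
  calc fx Ω g * ((line G a b).ncard - 1) = (s.biUnion L).card := by
        rw [Finset.card_biUnion hdisj, Finset.sum_congr rfl hL, Finset.sum_const, hs, smul_eq_mul]
    _ ≤ ((Finset.univ : Finset Ω).erase y).card := by
        refine Finset.card_le_card fun u hu => ?_
        obtain ⟨c, -, hu⟩ := Finset.mem_biUnion.1 hu
        exact Finset.mem_erase.2 ⟨(Finset.mem_erase.1 hu).1, Finset.mem_univ u⟩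
    _ = Fintype.card Ω - 1 := by rw [Finset.card_erase_of_mem (Finset.mem_univ y), Finset.card_univ]

end Cfsg.Agent.H6.Derange
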