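import Cfsg.Agent.H6.Derange.Lines

/-!
# Doubly transitive groups whose two-point stabilisers have only orbits of length at most two
-/

set_option autoImplicit false

open MulAction Pointwise

namespace Cfsg.Agent.H6.Derange

/-- Three subgroups of order `m` meeting pairwise in index two, not in a common one: each of the
first two normalises the other. -/
lemma le_normalizer_of_triangle {G : Type*} [Group G] [Finite G] {P Q R : Subgroup G} {m : ℕ}
    (hP : Nat.card P = m) (hQ : Nat.card Q = m) (hR : Nat.card R = m)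
    (hPQ : Nat.card (P ⊓ Q : Subgroup G) * 2 = m)
    (hPR : m ≤ Nat.card (R ⊓ P : Subgroup G) * 2) (hQR : m ≤ Nat.card (R ⊓ Q : Subgroup G) * 2)
    (hD : ¬ P ⊓ Q ≤ R) :
    P ≤ Subgroup.normalizer (Q : Set G) := by
  set D := P ⊓ Q
  have hm : 0 < m := hP ▸ Nat.card_pos
  -- a subgroup of index at most two
  have two : ∀ {X Y : Subgroup G}, X ≤ Y → Nat.card Y ≤ Nat.card X * 2 →
      Nat.card X ≠ Nat.card Y → Nat.card X * 2 = Nat.card Y := by
    intro X Y hXY h1 h2
    obtain ⟨t, ht⟩ := Subgroup.card_dvd_of_le hXY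
    have hX : 0 < Nat.card X := Nat.card_pos
    have : 0 < Nat.card Y := Nat.card_pos
    rcases Nat.lt_or_ge t 3 with h3 | h3
    · interval_cases t <;> omega
    · nlinarith
  have normal : ∀ {X Y : Subgroup G}, X ≤ Y → Nat.card Y ≤ Nat.card X * 2 →
      Y ≤ Subgroup.normalizer (X : Set G) := by
    intro X Y hXY h1
    by_cases h2 : Nat.card X = Nat.card Y
    · rw [Subgroup.eq_of_le_of_card_ge hXY h2.ge]
      exact Subgroup.le_normalizer
    · have h3 := two hXY h1 h2
      have hidx : (X.subgroupOf Y).index = 2 := by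
        have h := (X.subgroupOf Y).card_mul_index
        rw [Nat.card_congr (Subgroup.subgroupOfEquivOfLe hXY).toEquiv, ← h3] at h
        exact Nat.eq_of_mul_eq_mul_left Nat.card_pos h
      exact (Subgroup.normal_subgroupOf_iff_le_normalizer hXY).1
        (Subgroup.normal_of_index_eq_two hidx)
  -- the two traces on `R`
  have hneP : ¬ R ⊓ P ≤ Q := fun h => by
    have hle : R ⊓ P ≤ D := le_inf inf_le_right h
    have := Subgroup.eq_of_le_of_card_ge hle (by
      have : Nat.card D = Nat.card (P ⊓ Q : Subgroup G) := rfl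
      omega)
    exact hD (this ▸ inf_le_left)
  have hneQ : ¬ R ⊓ Q ≤ P := fun h => by
    have hle : R ⊓ Q ≤ D := le_inf h inf_le_right
    have := Subgroup.eq_of_le_of_card_ge hle (by
      have : Nat.card D = Nat.card (P ⊓ Q : Subgroup G) := rfl
      omega)
    exact hD (this ▸ inf_le_left)
  have sup_eq : ∀ {X Y Z : Subgroup G}, X ≤ Z → Y ≤ Z → ¬ Y ≤ X → Nat.card Z ≤ Nat.card X * 2 →
      X ⊔ Y = Z := by
    intro X Y Z hX hY hne h1
    have hle : X ⊔ Y ≤ Z := sup_le hX hY
    refine Subgroup.eq_of_le_of_card_ge hle ?_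
    obtain ⟨t, ht⟩ := Subgroup.card_dvd_of_le (le_sup_left : X ≤ X ⊔ Y)
    have hX0 : 0 < Nat.card X := Nat.card_pos
    have : 0 < Nat.card (X ⊔ Y : Subgroup G) := Nat.card_pos
    have ht1 : t ≠ 1 := fun e => by
      rw [e, mul_one] at ht
      exact hne ((Subgroup.eq_of_le_of_card_ge le_sup_left ht.le).symm ▸ le_sup_right)
    rcases Nat.lt_or_ge t 2 with h3 | h3
    · interval_cases t <;> omega
    · nlinarith
  have hRsup : (R ⊓ P) ⊔ (R ⊓ Q) = R :=
    sup_eq inf_le_left inf_le_left (fun h => hneQ (h.trans inf_le_right)) (by omega)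
  have hRD : R ≤ Subgroup.normalizer (D : Set G) := by
    rw [← hRsup]
    exact sup_le (inf_le_right.trans (normal inf_le_left (by omega)))
      (inf_le_right.trans (normal inf_le_right (by omega)))
  set L := D ⊔ R
  have hPL : P ≤ L := by
    rw [← sup_eq (inf_le_left : D ≤ P) (inf_le_right : R ⊓ P ≤ P)
      (fun h => hneP (h.trans inf_le_right)) (by
        have : Nat.card D = Nat.card (P ⊓ Q : Subgroup G) := rfl
        omega)]
    exact sup_le_sup_left inf_le_left _
  have hQL : Q ≤ L := by
    rw [← sup_eq (inf_le_right : D ≤ Q) (inf_le_right : R ⊓ Q ≤ Q)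
      (fun h => hneQ (h.trans inf_le_left)) (by
        have : Nat.card D = Nat.card (P ⊓ Q : Subgroup G) := rfl
        omega)]
    exact sup_le_sup_left inf_le_left _
  -- `|L| ≤ 2m`
  have hL : Nat.card L * Nat.card (D ⊓ R : Subgroup G) = Nat.card D * Nat.card R := by
    have h1 : Nat.card L = (D.subgroupOf L).index * Nat.card D := by
      rw [← Nat.card_congr (Subgroup.subgroupOfEquivOfLe (le_sup_left : D ≤ L)).toEquiv,
        mul_comm, Subgroup.card_mul_index]
    have h2 : (D.subgroupOf L).index = D.relIndex R := by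
      show D.relIndex (D ⊔ R) = D.relIndex R
      rw [sup_comm]
      let := Subgroup.normal_subgroupOf_of_le_normalizer hRD
      let := Subgroup.normal_subgroupOf_sup_of_le_normalizer hRD
      exact Nat.card_congr (QuotientGroup.quotientInfEquivProdNormalizerQuotient R D hRD).toEquiv.symm
    have h3 : D.relIndex R * Nat.card (D ⊓ R : Subgroup G) = Nat.card R := by
      rw [← Subgroup.inf_relIndex_right, mul_comm,
        ← Nat.card_congr (Subgroup.subgroupOfEquivOfLe (inf_le_right : D ⊓ R ≤ R)).toEquiv]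
      exact Subgroup.card_mul_index _
    rw [h1, h2, ← h3]; ring
  have hDR : Nat.card D ≤ Nat.card (D ⊓ R : Subgroup G) * 2 := by
    have h1 : R.relIndex D ≤ 2 := by
      refine (Subgroup.relIndex_le_of_le_right (inf_le_left : D ≤ P) ?_).trans ?_
      · exact Subgroup.index_ne_zero_of_finite
      · by_contra h
        have h3 : R.relIndex P * Nat.card (R ⊓ P : Subgroup G) = Nat.card P := by
          rw [← Subgroup.inf_relIndex_right, mul_comm,
            ← Nat.card_congr (Subgroup.subgroupOfEquivOfLe (inf_le_right : R ⊓ P ≤ P)).toEquiv]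
          exact Subgroup.card_mul_index _
        have := Nat.mul_le_mul_right (Nat.card (R ⊓ P : Subgroup G)) (not_le.1 h)
        omega
    have h3 : R.relIndex D * Nat.card (R ⊓ D : Subgroup G) = Nat.card D := by
      rw [← Subgroup.inf_relIndex_right, mul_comm,
        ← Nat.card_congr (Subgroup.subgroupOfEquivOfLe (inf_le_right : R ⊓ D ≤ D)).toEquiv]
      exact Subgroup.card_mul_index _
    have := Nat.mul_le_mul_right (Nat.card (R ⊓ D : Subgroup G)) h1
    rw [inf_comm D R]
    omega
  refine hPL.trans (normal hQL ?_)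
  have hD0 : 0 < Nat.card (D ⊓ R : Subgroup G) := Nat.card_pos
  nlinarith

variable {G Ω : Type*} [Group G] [MulAction G Ω] [Fintype G] [Fintype Ω] [FaithfulSMul G Ω]
  (htwo : ∀ a b c d : Ω, a ≠ b → c ≠ d → ∃ g : G, g • a = c ∧ g • b = d)
  (horb : ∀ a b c : Ω, a ≠ b → Nat.card (orbit (pairStab G a b) c) ≤ 2)

omit [Fintype Ω] [FaithfulSMul G Ω] in
include horb in
lemma card_inter_ge {a b : Ω} (hab : a ≠ b) (c : Ω) :
    Nat.card (pairStab G a b) ≤
      Nat.card (pairStab G a b ⊓ pairStab G a c : Subgroup G) * 2 := by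
  have h := Nat.card_congr (orbitProdStabilizerEquivGroup (pairStab G a b) c)
  rw [Nat.card_prod] at h
  have e : stabilizer (pairStab G a b) c ≃ (pairStab G a b ⊓ pairStab G a c : Subgroup G) :=
    { toFun := fun x => ⟨x.1.1, x.1.2, mem_pairStab.2 ⟨x.1.2.1, x.2⟩⟩
      invFun := fun x => ⟨⟨x.1, x.2.1⟩, (mem_pairStab.1 x.2.2).2⟩
      left_inv := fun x => rfl
      right_inv := fun x => rfl }
  rw [Nat.card_congr e] at h
  rw [← h, mul_comm _ 2]
  exact Nat.mul_le_mul_right _ (horb a b c hab)

include htwo horb in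
lemma pairStab_le_normalizer {a x y : Ω} (hax : a ≠ x) (hay : a ≠ y)
    (hm : 3 ≤ Nat.card (pairStab G a x)) :
    pairStab G a x ≤ Subgroup.normalizer (pairStab G a y : Set G) := by
  set P := pairStab G a x
  set Q := pairStab G a y
  by_cases hPQ : P = Q
  · rw [← hPQ]; exact Subgroup.le_normalizer
  have hcard : Nat.card Q = Nat.card P := card_pairStab_eq htwo hay hax
  have h2 : Nat.card (P ⊓ Q : Subgroup G) * 2 = Nat.card P := by
    have h := card_inter_ge horb hax y
    obtain ⟨t, ht⟩ := Subgroup.card_dvd_of_le (inf_le_left : P ⊓ Q ≤ P)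
    have hX : 0 < Nat.card (P ⊓ Q : Subgroup G) := Nat.card_pos
    have ht1 : t ≠ 1 := fun e => by
      rw [e, mul_one] at ht
      have h1 := Subgroup.eq_of_le_of_card_ge (inf_le_left : P ⊓ Q ≤ P) ht.le
      exact hPQ (Subgroup.eq_of_le_of_card_ge (inf_eq_left.1 h1) hcard.le)
    have : 0 < Nat.card P := Nat.card_pos
    rcases Nat.lt_or_ge t 3 with h3 | h3
    · interval_cases t <;> omega
    · nlinarith
  obtain ⟨z, hz⟩ : ∃ z, ¬ P ⊓ Q ≤ pairStab G a z := by
    by_contra h
    push Not at h
    have hbot : P ⊓ Q = ⊥ := (Subgroup.eq_bot_iff_forall _).2 fun g hg =>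
      eq_of_smul_eq_smul (α := Ω) fun z => ((h z hg).2).trans (one_smul G z).symm
    rw [hbot, Subgroup.card_bot] at h2
    omega
  have haz : a ≠ z := fun e => hz fun g hg => e ▸ mem_pairStab.2 ⟨hg.1.1, hg.1.1⟩
  refine le_normalizer_of_triangle (R := pairStab G a z) rfl hcard
    (card_pairStab_eq htwo haz hax) h2 ?_ ?_ hz
  · exact (card_pairStab_eq htwo haz hax) ▸ card_inter_ge horb haz x
  · exact (card_pairStab_eq htwo haz hax) ▸ card_inter_ge horb haz y

include htwo horb in
/-- Such a group has two-point stabilisers of order at most two. -/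
lemma card_pairStab_le_two {a b : Ω} (hab : a ≠ b) : Nat.card (pairStab G a b) ≤ 2 := by
  by_contra hm
  have : Nontrivial (pairStab G a b) := Finite.one_lt_card_iff_nontrivial.1 (by omega)
  obtain ⟨⟨g, hg⟩, hg1⟩ := exists_ne (1 : pairStab G a b)
  obtain ⟨y, hy⟩ : ∃ y : Ω, g • y ≠ y := by
    by_contra h
    push Not at h
    exact hg1 (Subtype.ext (eq_of_smul_eq_smul fun x => (h x).trans (one_smul G x).symm))
  have hmem : ∀ c d : Ω, c ≠ d → g ∈ pairStab G c d → c ≠ y ∧ g • y ∈ line G c y := by
    intro c d hcd hgcd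
    have hcy : c ≠ y := fun e => hy (e ▸ hgcd.1)
    refine ⟨hcy, fun h hh => ?_⟩
    have hn := pairStab_le_normalizer htwo horb hcd hcy
      (by rw [card_pairStab_eq htwo hcd hab]; omega) hgcd
    have h' : g⁻¹ * h * g ∈ pairStab G c y := by
      have := Subgroup.mem_normalizer_iff.1 (inv_mem hn) h |>.1 hh
      simpa using this
    have := (mem_pairStab.1 h').2
    rwa [mul_smul, mul_smul, inv_smul_eq_iff] at this
  obtain ⟨hay, h1⟩ := hmem a b hab hg
  obtain ⟨hby, h2⟩ := hmem b a hab.symm (pairStab_comm (G := G) a b ▸ hg)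
  have e1 := line_eq_of_mem htwo hay (right_mem_line a y) h1 hy.symm
  have e2 := line_eq_of_mem htwo hby (right_mem_line b y) h2 hy.symm
  have hb : b ∈ line G a y := by rw [← e1, e2]; exact left_mem_line b y
  have e3 := pairStab_eq_of_mem htwo hay (left_mem_line a y) hb hab
  exact hy (mem_pairStab.1 (e3 ▸ hg)).2

end Cfsg.Agent.H6.Derange
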